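import Mathlib
import Cfsg.Agent.Lib.Helper51.TIH.Defs

/-!
# TIH (S4118): package [F]
-/

set_option autoImplicit false

namespace Cfsg.Agent.Lib.Helper93.TIH

open Cfsg.Agent.Lib.Helper51.TIH

universe u

/-- [F] -/
theorem pkgF : PkgF.{u} := by
  intro G _ _ H O hcore hsep hH
  obtain ⟨hOn, hOc, hOmax⟩ := hcore
  obtain ⟨n, M, hM0, hMl, hMmono, hMn, hMstep⟩ := hsep
  haveI := hOn
  -- `O ≠ ⊤`
  have hOtop : ¬ (⊤ : Subgroup G) ≤ O := by
    intro h
    have hO : O = ⊤ := top_le_iff.1 h
    rw [hO, Subgroup.card_top] at hOc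
    have hdvd : Nat.card H ∣ Nat.card G := Subgroup.card_subgroup_dvd_card H
    have h1 : Nat.card H = 1 := Nat.Coprime.eq_one_of_dvd hOc.symm hdvd
    exact hH ((Subgroup.card_eq_one).1 h1)
  -- the step leaving `O`
  have hex : ∃ i : Fin n, M i.castSucc ≤ O ∧ ¬ M i.succ ≤ O := by
    by_contra hcon
    push Not at hcon
    have hall : ∀ j : Fin (n + 1), M j ≤ O := by
      intro j
      induction j using Fin.induction with
      | zero => rw [hM0]; exact bot_le
      | succ i ih => exact hcon i ih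
    exact hOtop (hMl ▸ hall (Fin.last n))
  obtain ⟨i, hi1, hi2⟩ := hex
  haveI := hMn i.succ
  have hrel : O.relIndex (O ⊔ M i.succ) ∣ (M i.castSucc).relIndex (M i.succ) := by
    rw [Subgroup.relIndex_sup_left]
    exact Subgroup.relIndex_dvd_of_le_left _ hi1
  have hne : O ≠ O ⊔ M i.succ := by
    intro h
    apply hi2
    rw [h]
    exact le_sup_right
  refine ⟨O ⊔ M i.succ, inferInstance, le_sup_left, hne, ?_⟩
  rcases hMstep i with hA | hB
  · intro q hq hqd
    exact hA q hq (hqd.trans hrel)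
  · exfalso
    have hcard : Nat.card O * O.relIndex (O ⊔ M i.succ) = Nat.card (O ⊔ M i.succ : Subgroup G) := by
      have := Subgroup.relIndex_mul_relIndex ⊥ O (O ⊔ M i.succ) bot_le le_sup_left
      rwa [Subgroup.relIndex_bot_left, Subgroup.relIndex_bot_left] at this
    have hcop : (Nat.card (O ⊔ M i.succ : Subgroup G)).Coprime (Nat.card H) := by
      rw [← hcard]
      exact Nat.Coprime.mul_left hOc (Nat.Coprime.coprime_dvd_left hrel hB)
    have hle : O ⊔ M i.succ ≤ O := hOmax _ inferInstance hcop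
    exact hne (le_antisymm le_sup_left hle)

end Cfsg.Agent.Lib.Helper93.TIH
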