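import Mathlib
import Cfsg.Agent.Lib.Helper51.TIH.Defs

/-!
# TIH (S4118): package [O]
-/

set_option autoImplicit false

namespace Cfsg.Agent.Lib.Helper93.TIH

open Cfsg.Agent.Lib.Helper51.TIH

universe u

/-- `|K₁ K₂|` divides `|K₁| |K₂|` when `K₂` is normal. -/
theorem card_sup_dvd_mul {G : Type u} [Group G] (K₁ K₂ : Subgroup G) [K₂.Normal] :
    Nat.card (K₁ ⊔ K₂ : Subgroup G) ∣ Nat.card K₁ * Nat.card K₂ := by
  have h1 : Nat.card K₂ * K₂.relIndex (K₁ ⊔ K₂) = Nat.card (K₁ ⊔ K₂ : Subgroup G) := by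
    have := Subgroup.relIndex_mul_relIndex ⊥ K₂ (K₁ ⊔ K₂) bot_le le_sup_right
    rwa [Subgroup.relIndex_bot_left, Subgroup.relIndex_bot_left] at this
  rw [← h1, Subgroup.relIndex_sup_right, mul_comm]
  exact mul_dvd_mul_right (Subgroup.relIndex_dvd_card _ _) _

/-- [O] -/
theorem pkgO : PkgO.{u} := by
  intro G _ _ H O hO
  classical
  have hfin : {K : Subgroup G | K.Normal ∧ (Nat.card K).Coprime (Nat.card H)}.Finite :=
    Set.toFinite _
  have hsup : O = hfin.toFinset.sup id := by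
    rw [hO, Finset.sup_id_eq_sSup, Set.Finite.coe_toFinset]
  have key : O.Normal ∧ (Nat.card O).Coprime (Nat.card H) := by
    rw [hsup]
    refine Finset.sup_induction (p := fun K : Subgroup G =>
      K.Normal ∧ (Nat.card K).Coprime (Nat.card H)) ?_ ?_ ?_
    · refine ⟨inferInstance, ?_⟩
      rw [Subgroup.card_bot]
      exact Nat.coprime_one_left _
    · rintro K₁ ⟨hn₁, hc₁⟩ K₂ ⟨hn₂, hc₂⟩
      haveI := hn₁
      haveI := hn₂
      refine ⟨inferInstance, ?_⟩
      exact Nat.Coprime.coprime_dvd_left (card_sup_dvd_mul K₁ K₂) (Nat.Coprime.mul_left hc₁ hc₂)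
    · intro K hK
      exact (Set.Finite.mem_toFinset hfin).1 hK
  refine ⟨key.1, key.2, fun K hKn hKc => ?_⟩
  rw [hO]
  exact le_sSup ⟨hKn, hKc⟩

end Cfsg.Agent.Lib.Helper93.TIH
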